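import Cfsg.Agent.H674.XZ.Base
import Cfsg.Agent.H703.Lat.Basic
import Cfsg.Agent.CharactersDeep.ModCongr

/-!
# S4791 + S4927: the lattice lemma for `X0` (helper605)

`X0` = the almost `p`-rational members of degree prime to `p` of the principal block (`H674.XZ.Mem0`).

* `apply_pow_sub` : `χ (g ^ k) ≡ χ g` modulo `M` for `k ∈ JJ p G`.
* `sum_block_sub` : the sum of `χ(1) χ(g)` over `X0` is congruent to the sum over the block modulo `M`.
* `cc m χ` : the coefficient `⟨m χ(1)⟩` (least absolute residue modulo `p`) on `X0`, `0` elsewhere (`lr` residue function).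
* `exists_F0` : `∑ cc m χ · χ = p F`, `F` integer valued.
* `lattice_x0` : `p |⟨m⟩| ≤ ∑_{X0} ⟨m χ(1)⟩²`.
* `dvd_sum_sq0` : `p ∣ ∑_{X0} χ(1)²` if `p ∣ |G|`.
-/

set_option autoImplicit false

open scoped ComplexConjugate

namespace Cfsg.Agent.H605.XZ

open Cfsg Cfsg.Agent.Characters Cfsg.Agent.Characters.Core Cfsg.Agent.H674.XZ
open Cfsg.Agent.Blocks.Local

universe u

/-! ### sums of invariant functions in characteristic `p` -/

/-- a `p`-group acting on a finite set, an invariant function with values in a ring of characteristic `p`: the sum is the sum over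
the fixed points -/
theorem sum_eq_fixed {p : ℕ} [hp : Fact p.Prime] {K : Type*} [Ring K] (hK : (p : K) = 0) {A : Type*} [Group A] [Finite A]
    (hA : IsPGroup p A) {I : Type*} [Fintype I] [MulAction A I] (f : I → K) (hf : ∀ (a : A) (i : I), f (a • i) = f i)
    [DecidablePred fun i : I => ∀ a : A, a • i = i] :
    ∑ i, f i = ∑ i, (if ∀ a : A, a • i = i then f i else 0) := by
  classical
  rw [← sub_eq_zero, ← Finset.sum_sub_distrib]
  have h0 : ∀ i, (f i - (if ∀ a : A, a • i = i then f i else 0)) = (if ∀ a : A, a • i = i then 0 else f i) := by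
    intro i
    split_ifs
    · exact sub_self _
    · exact sub_zero _
  rw [Finset.sum_congr rfl fun i _ => h0 i]
  rw [← Finset.sum_fiberwise_of_maps_to (s := Finset.univ) (t := Finset.univ)
    (g := fun i => (Quotient.mk (MulAction.orbitRel A I) i)) (fun i _ => Finset.mem_univ _)]
  refine Finset.sum_eq_zero fun q _ => ?_
  induction q using Quotient.inductionOn with
  | h j =>
    have h1 : ∀ i ∈ Finset.univ.filter (fun i => (Quotient.mk (MulAction.orbitRel A I) i) = Quotient.mk _ j),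
        (if ∀ a : A, a • i = i then (0 : K) else f i) = (if ∀ a : A, a • j = j then (0 : K) else f j) := by
      intro i hi
      rw [Finset.mem_filter] at hi
      obtain ⟨a, rfl⟩ := MulAction.orbitRel_apply.1 (Quotient.exact hi.2)
      change (if ∀ b : A, b • a • j = a • j then (0 : K) else f (a • j)) = _
      rw [hf]
      have h2 : (∀ b : A, b • a • j = a • j) ↔ ∀ b : A, b • j = j := by
        constructor
        · intro h b
          have h3 := h (a * b * a⁻¹)
          rw [← mul_smul, inv_mul_cancel_right, mul_smul] at h3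
          exact (MulAction.injective a) h3
        · intro h b
          rw [h a, h b]
      simp only [h2]
    rw [Finset.sum_congr rfl h1, Finset.sum_const, nsmul_eq_mul]
    split_ifs with h3
    · rw [mul_zero]
    · have h4 : (Finset.univ.filter (fun i => (Quotient.mk (MulAction.orbitRel A I) i) = Quotient.mk _ j)).card =
          Nat.card (MulAction.orbit A j) := by
        rw [Nat.card_eq_fintype_card, ← Set.toFinset_card]
        congr 1
        ext i
        rw [Finset.mem_filter, Set.mem_toFinset]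
        constructor
        · intro h
          exact MulAction.orbitRel_apply.1 (Quotient.exact h.2)
        · intro h
          exact ⟨Finset.mem_univ _, Quotient.sound (MulAction.orbitRel_apply.2 h)⟩
      have h5 : p ∣ Nat.card (MulAction.orbit A j) := by
        obtain ⟨n, hn⟩ := hA.card_orbit j
        rw [hn]
        rcases Nat.eq_zero_or_pos n with h6 | h6
        · exfalso
          rw [h6, pow_zero] at hn
          apply h3
          intro a
          have h7 := Nat.card_eq_one_iff_unique.1 hn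
          have := h7.1
          exact congrArg Subtype.val (Subsingleton.elim (⟨a • j, MulAction.mem_orbit j a⟩ : MulAction.orbit A j)
            ⟨j, MulAction.mem_orbit_self j⟩)
        · exact dvd_pow_self p h6.ne'
      obtain ⟨m, hm⟩ := h5
      rw [h4, hm, Nat.cast_mul, hK, zero_mul, zero_mul]

variable {p : ℕ} {M : Ideal AlgInt} {G : Type u} [Group G] [Finite G]

/-! ### the values modulo `M` -/

/-- `g ^ (k p^a) = g ^ (p^a)` for `k ∈ JJ p G`, `p^a = |G|_p` -/
theorem pow_ex_pow {w : (ZMod (Nat.card G))ˣ} (hw : w ∈ JJ p G) (g : G) :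
    (g ^ ex w) ^ p ^ (Nat.card G).factorization p = g ^ p ^ (Nat.card G).factorization p := by
  rw [← pow_mul]
  refine pow_congr_card g ?_
  have h1 := (mem_JJ (p := p) w).1 hw
  have h2 : ex w ≡ 1 [MOD mp p G] := h1.of_dvd (mp_dvd_dd p G)
  have h6 := Nat.ordProj_mul_ordCompl_eq_self (Nat.card G) p
  have h7 : p ^ (Nat.card G).factorization p * ex w ≡ p ^ (Nat.card G).factorization p * 1
      [MOD p ^ (Nat.card G).factorization p * mp p G] := Nat.ModEq.mul_left' _ h2
  rw [h6, mul_one, mul_comm] at h7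
  exact h7

theorem apply_pow_sub (hM : IsPModular p M) (χ : IrrCharacter G) {w : (ZMod (Nat.card G))ˣ}
    (hw : w ∈ JJ p G) (g : G) : MemLocalIdeal M ((χ : G → ℂ) (g ^ ex w) - (χ : G → ℂ) g) := by
  obtain ⟨χ, hχ⟩ := χ
  have hx := CharactersDeep.ModCongr.isIntegral_irr hχ (g ^ ex w)
  have hr := CharactersDeep.ModCongr.isIntegral_irr hχ g
  obtain ⟨m, ρ, -, rfl⟩ := hχ
  have h := CharactersDeep.ModCongr.trace_sub_mem hM (ρ (g ^ ex w)) (ρ g) (Nat.card G) Nat.card_pos.ne'
    (by rw [← map_pow, pow_card_eq_one', map_one]) (by rw [← map_pow, pow_card_eq_one', map_one])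
    ((Nat.card G).factorization p) ?_ ⟨_, hx⟩ ⟨_, hr⟩ rfl rfl
  · exact (CharactersDeep.ModCongr.memLocalIdeal_coe_iff hM.2.1.isPrime _).2 h
  · rw [← map_pow, ← map_pow, pow_ex_pow hw]

/-! ### Galois conjugates -/

theorem pw_pw (u v : (ZMod (Nat.card G))ˣ) (χ : IrrCharacter G) : pw u (pw v χ) = pw (u * v) χ := by
  let := gact G
  exact (mul_smul u v χ).symm

theorem alm_pw [hp : Fact p.Prime] (u : (ZMod (Nat.card G))ˣ) (χ : IrrCharacter G) :
    Alm p (pw u χ : G → ℂ) ↔ Alm p (χ : G → ℂ) := by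
  rw [alm_iff, alm_iff]
  refine forall₂_congr fun v _ => ?_
  rw [pw_pw, mul_comm, ← pw_pw]
  let := gact G
  exact ⟨fun h => MulAction.injective u h, fun h => by rw [h]⟩

theorem mem0_pw [hp : Fact p.Prime] (u : (ZMod (Nat.card G))ˣ) (χ : IrrCharacter G) :
    Mem0 p M (pw u χ) ↔ Mem0 p M χ := by
  unfold Mem0
  rw [pw_mem_iff, charDegree_pw, alm_pw]

theorem powIrr_eq_pw {k : ℕ} (hk : k.Coprime (Nat.card G)) (χ : IrrCharacter G) :
    H703.Lat.powIrr hk χ = pw (ZMod.unitOfCoprime k hk) χ := by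
  refine Subtype.ext (funext fun g => ?_)
  rw [H703.Lat.powIrr_apply, pw_apply]
  refine congrArg (χ : G → ℂ) (pow_congr_card g ?_)
  rw [← ZMod.natCast_eq_natCast_iff, ex_cast]
  rfl

/-- a function of the degree, extended by zero outside `X0`, is invariant -/
theorem inv_mem0 [hp : Fact p.Prime] {c : IrrCharacter G → ℤ} (hc : H703.Lat.Inv c)
    [DecidablePred fun χ : IrrCharacter G => Mem0 p M χ] :
    H703.Lat.Inv (fun χ : IrrCharacter G => if Mem0 p M χ then c χ else 0) := by
  intro k hk χ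
  have h1 : Mem0 p M (H703.Lat.powIrr hk χ) ↔ Mem0 p M χ := by
    rw [powIrr_eq_pw]
    exact mem0_pw _ _
  simp only [h1, hc k hk χ]

/-! ### the sum over `X0` -/

open scoped Classical in
/-- the finset of the members of `X0` -/
noncomputable def X0 (p : ℕ) (M : Ideal AlgInt) (G : Type u) [Group G] [Finite G] : Finset (IrrCharacter G) :=
  (H703.Lat.B0 M G).filter fun χ => Mem0 p M χ

theorem mem_X0 {χ : IrrCharacter G} : χ ∈ X0 p M G ↔ Mem0 p M χ := by
  classical
  unfold X0
  rw [Finset.mem_filter, H703.Lat.mem_B0]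
  exact ⟨fun h => h.2, fun h => ⟨h.1, h⟩⟩

theorem card_X0 : (X0 p M G).card = x0 p M G := by
  unfold x0
  rw [← Nat.card_eq_fintype_card.trans (Fintype.card_coe (X0 p M G))]
  exact Nat.card_congr (Equiv.subtypeEquivRight fun χ => mem_X0)

/-- modulo `M` the sum of an invariant function of the degree times the values over `X0` is the sum over the block -/
theorem sum_block_sub [hp : Fact p.Prime] (hM : IsPModular p M) (g : G) :
    MemLocalIdeal M (∑ χ ∈ H703.Lat.B0 M G, (charDegree (χ : G → ℂ) : ℂ) * (χ : G → ℂ) g -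
      ∑ χ ∈ X0 p M G, (charDegree (χ : G → ℂ) : ℂ) * (χ : G → ℂ) g) := by
  classical
  have hMp : M.IsPrime := hM.2.1.isPrime
  have hfin : Finite (IrrCharacter G) := finite_irr
  let : Fintype (IrrCharacter G) := Fintype.ofFinite _
  let act0 : MulAction (ZMod (Nat.card G))ˣ (IrrCharacter G) := gact G
  have : NeZero (Nat.card G) := ⟨(Nat.card_pos (α := G)).ne'⟩
  have hloc : ∀ χ : IrrCharacter G, MemLocalRing M ((χ : G → ℂ) g) := fun χ =>
    memLocalRing_of_isIntegral (CharactersDeep.ModCongr.isIntegral_irr χ.2 g)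
  have hloc' : ∀ χ : IrrCharacter G, MemLocalRing M ((charDegree (χ : G → ℂ) : ℂ) * (χ : G → ℂ) g) := fun χ =>
    memLocalRing_mul (memLocalRing_natCast _) (hloc χ)
  have hK : ((p : ℕ) : ResField M) = 0 := by
    rw [← redC_natCast (M := M), redC_eq_zero_iff (memLocalRing_natCast p)]
    exact memLocalIdeal_p hM
  have hsm : ∀ (u : JJ p G) (χ : IrrCharacter G), u • χ = pw u.1 χ := fun _ _ => rfl
  set f : IrrCharacter G → ResField M := fun χ => if χ ∈ principalBlock M G then
    redC M ((charDegree (χ : G → ℂ) : ℂ) * (χ : G → ℂ) g) else 0 with hf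
  have h1 := sum_eq_fixed (p := p) (A := JJ p G) hK (isPGroup_JJ (p := p) (G := G)) (I := IrrCharacter G) f
    (fun u χ => by
      rw [hsm]
      simp only [hf]
      simp only [pw_mem_iff, charDegree_pw]
      split_ifs with h
      · rw [redC_mul (memLocalRing_natCast _) (hloc _), redC_mul (memLocalRing_natCast _) (hloc _), pw_apply,
          (redC_eq_iff (hloc χ |> fun _ => memLocalRing_of_isIntegral (CharactersDeep.ModCongr.isIntegral_irr χ.2 _)) (hloc χ)).2
            (apply_pow_sub hM χ u.2 g)]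
      · rfl)
  have h2 : ∑ χ, f χ = redC M (∑ χ ∈ H703.Lat.B0 M G, (charDegree (χ : G → ℂ) : ℂ) * (χ : G → ℂ) g) := by
    rw [redC_sum fun χ _ => hloc' χ]
    rw [← Finset.sum_filter_add_sum_filter_not Finset.univ (fun χ => χ ∈ H703.Lat.B0 M G)]
    rw [Finset.filter_mem_eq_inter, Finset.univ_inter]
    have h3 : ∑ χ with χ ∉ H703.Lat.B0 M G, f χ = 0 := by
      refine Finset.sum_eq_zero fun χ hχ => ?_
      exact if_neg fun h => (Finset.mem_filter.1 hχ).2 (H703.Lat.mem_B0.2 h)
    rw [h3, add_zero]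
    exact Finset.sum_congr rfl fun χ hχ => if_pos (H703.Lat.mem_B0.1 hχ)
  have h4 : ∑ χ, (if ∀ u : JJ p G, u • χ = χ then f χ else 0) =
      redC M (∑ χ ∈ X0 p M G, (charDegree (χ : G → ℂ) : ℂ) * (χ : G → ℂ) g) := by
    rw [redC_sum fun χ _ => hloc' χ]
    rw [← Finset.sum_filter_add_sum_filter_not Finset.univ (fun χ => χ ∈ X0 p M G)]
    rw [Finset.filter_mem_eq_inter, Finset.univ_inter]
    have h5 : ∀ χ : IrrCharacter G, (∀ u : JJ p G, u • χ = χ) ↔ Alm p (χ : G → ℂ) := by
      intro χ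
      rw [alm_iff]
      exact ⟨fun h u hu => h ⟨u, hu⟩, fun h u => h u.1 u.2⟩
    have h3 : ∑ χ with χ ∉ X0 p M G, (if ∀ u : JJ p G, u • χ = χ then f χ else 0) = 0 := by
      refine Finset.sum_eq_zero fun χ hχ => ?_
      have h6 := (Finset.mem_filter.1 hχ).2
      rw [mem_X0] at h6
      split_ifs with h7
      · by_cases h8 : χ ∈ principalBlock M G
        · have h9 : p ∣ charDegree (χ : G → ℂ) := by
            by_contra h9
            exact h6 ⟨h8, h9, (h5 χ).1 h7⟩
          simp only [hf]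
          rw [if_pos h8, redC_mul (memLocalRing_natCast _) (hloc _), redC_natCast]
          obtain ⟨m, hm⟩ := h9
          rw [hm, Nat.cast_mul, hK, zero_mul, zero_mul]
        · exact if_neg h8
      · rfl
    rw [h3, add_zero]
    refine Finset.sum_congr rfl fun χ hχ => ?_
    rw [mem_X0] at hχ
    rw [if_pos ((h5 χ).2 hχ.2.2)]
    exact if_pos hχ.1
  rw [h2, h4] at h1
  exact (redC_eq_iff (memLocalRing_sum fun χ _ => hloc' χ) (memLocalRing_sum fun χ _ => hloc' χ)).1 h1

/-- the sum over `X0` of the degree times the value is `0` modulo `M` -/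
theorem sum_X0_mem [hp : Fact p.Prime] (hM : IsPModular p M) (hG : p ∣ Nat.card G) (g : G) :
    MemLocalIdeal M (∑ χ ∈ X0 p M G, (charDegree (χ : G → ℂ) : ℂ) * (χ : G → ℂ) g) := by
  have hMp : M.IsPrime := hM.2.1.isPrime
  obtain ⟨n, hn⟩ := H703.Lat.theta_dvd hM (H703.Lat.good_principal hM) (a := 1) (by rwa [pow_one]) g
  have h1 := sum_block_sub hM g
  rw [hn, pow_one] at h1
  have h2 : MemLocalIdeal M ((p : ℂ) * n) := memLocalIdeal_mul_right (memLocalIdeal_p hM) (memLocalRing_intCast n)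
  have h3 := memLocalIdeal_sub h2 h1
  rwa [sub_sub_cancel] at h3

/-! ### the lattice lemma -/

/-- an invariant integral combination of the members of `X0` with coefficients `≡ m χ(1)` is `p` times an integer valued
function -/
theorem exists_F0 [hp : Fact p.Prime] (hM : IsPModular p M) (hG : p ∣ Nat.card G) {c : IrrCharacter G → ℤ}
    (hc : H703.Lat.Inv c) {m : ℤ} (hcm : ∀ χ ∈ X0 p M G, (p : ℤ) ∣ c χ - m * charDegree (χ : G → ℂ)) :
    ∃ F : G → ℤ, ∀ g, ∑ χ ∈ X0 p M G, (c χ : ℂ) * (χ : G → ℂ) g = (p : ℂ) * F g := by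
  classical
  have hMp : M.IsPrime := hM.2.1.isPrime
  suffices h : ∀ g : G, ∃ n : ℤ, ∑ χ ∈ X0 p M G, (c χ : ℂ) * (χ : G → ℂ) g = (p : ℂ) * n by
    choose F hF using h
    exact ⟨F, hF⟩
  intro g
  have hc' : H703.Lat.Inv (fun χ : IrrCharacter G => if Mem0 p M χ then c χ else 0) := inv_mem0 hc
  obtain ⟨x, hx⟩ := H703.Lat.exists_int (H703.Lat.good_principal hM) hc' g
  have hx' : ∑ χ ∈ X0 p M G, (c χ : ℂ) * (χ : G → ℂ) g = x := by
    rw [← hx]
    unfold X0
    rw [Finset.sum_filter]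
    refine Finset.sum_congr rfl fun χ _ => ?_
    split_ifs
    · rfl
    · rw [Int.cast_zero, zero_mul]
  have h1 : MemLocalIdeal M (x : ℂ) := by
    rw [← hx']
    have h2 : ∑ χ ∈ X0 p M G, (c χ : ℂ) * (χ : G → ℂ) g =
        ∑ χ ∈ X0 p M G, ((c χ : ℂ) - m * charDegree (χ : G → ℂ)) * (χ : G → ℂ) g +
          m * ∑ χ ∈ X0 p M G, (charDegree (χ : G → ℂ) : ℂ) * (χ : G → ℂ) g := by
      rw [Finset.mul_sum, ← Finset.sum_add_distrib]
      refine Finset.sum_congr rfl fun χ _ => ?_
      ring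
    rw [h2]
    refine memLocalIdeal_add (memLocalIdeal_sum fun χ hχ => ?_)
      (memLocalIdeal_mul_left (memLocalRing_intCast m) (sum_X0_mem hM hG g))
    obtain ⟨s, hs⟩ := hcm χ hχ
    have h3 : ((c χ : ℂ) - m * charDegree (χ : G → ℂ)) = (p : ℂ) * s := by
      have h4 : ((c χ - m * charDegree (χ : G → ℂ) : ℤ) : ℂ) = (((p : ℤ) * s : ℤ) : ℂ) := by rw [hs]
      push_cast at h4
      exact h4
    rw [h3, mul_assoc]
    exact memLocalIdeal_mul_right (memLocalIdeal_p hM) (memLocalRing_mul (memLocalRing_intCast s)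
      (memLocalRing_of_isIntegral (CharactersDeep.ModCongr.isIntegral_irr χ.2 g)))
  obtain ⟨n, hn⟩ := (memLocalIdeal_intCast_iff hM x).1 h1
  refine ⟨n, ?_⟩
  rw [hx', hn]
  push_cast
  ring

theorem one_mem_X0 [hp : Fact p.Prime] (hM : IsPModular p M) :
    (⟨fun _ => 1, Cfsg.Agent.Blocks.Basic.isIrrCharacter_one⟩ : IrrCharacter G) ∈ X0 p M G := by
  rw [mem_X0]
  refine ⟨H703.Lat.mem_B0.1 (H703.Lat.one_mem_B0 hM), ?_, alm_of_rat fun g => ⟨1, by rw [Rat.cast_one]⟩⟩
  have h : charDegree (fun _ : G => (1 : ℂ)) = 1 := by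
    unfold charDegree
    simp
  change ¬ p ∣ charDegree (fun _ : G => (1 : ℂ))
  rw [h]
  exact hp.out.not_dvd_one

/-- **The lattice inequality for `X0`.** -/
theorem lattice0 [hp : Fact p.Prime] (hM : IsPModular p M) (hG : p ∣ Nat.card G) {c : IrrCharacter G → ℤ}
    (hc : H703.Lat.Inv c) {m : ℤ} (hcm : ∀ χ ∈ X0 p M G, (p : ℤ) ∣ c χ - m * charDegree (χ : G → ℂ)) :
    (p : ℤ) * |c ⟨fun _ => 1, Cfsg.Agent.Blocks.Basic.isIrrCharacter_one⟩| ≤ ∑ χ ∈ X0 p M G, c χ ^ 2 := by
  obtain ⟨F, hF⟩ := exists_F0 hM hG hc hcm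
  exact H703.Lat.lattice hp.out.ne_zero (one_mem_X0 hM) hF

/-- `p ∣ ∑_{X0} χ(1)²` -/
theorem dvd_sum_sq0 [hp : Fact p.Prime] (hM : IsPModular p M) (hG : p ∣ Nat.card G) :
    (p : ℤ) ∣ ∑ χ ∈ X0 p M G, (charDegree (χ : G → ℂ) : ℤ) ^ 2 := by
  have hMp : M.IsPrime := hM.2.1.isPrime
  have h1 := sum_X0_mem hM hG (1 : G)
  rw [← memLocalIdeal_intCast_iff hM]
  have h2 : ((∑ χ ∈ X0 p M G, (charDegree (χ : G → ℂ) : ℤ) ^ 2 : ℤ) : ℂ) =
      ∑ χ ∈ X0 p M G, (charDegree (χ : G → ℂ) : ℂ) * (χ : G → ℂ) 1 := by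
    push_cast
    exact Finset.sum_congr rfl fun χ _ => by rw [H667.BR.charDegree_cast, sq]
  rw [h2]
  exact h1

/-- the least absolute residue of `m n` modulo `p`, as a function of `n` -/
noncomputable def lr (p : ℕ) (m : ℤ) (n : ℕ) : ℤ := Int.bmod (m * n) p

theorem dvd_lr (m : ℤ) (n : ℕ) : (p : ℤ) ∣ lr p m n - m * n := Int.dvd_bmod_sub_self

/-- **The lattice inequality for the least absolute residues.** -/
theorem lattice_lr [hp : Fact p.Prime] (hM : IsPModular p M) (hG : p ∣ Nat.card G) (m : ℤ) :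
    (p : ℤ) * |lr p m 1| ≤ ∑ χ ∈ X0 p M G, lr p m (charDegree (χ : G → ℂ)) ^ 2 := by
  have h := lattice0 hM hG (c := fun χ : IrrCharacter G => lr p m (charDegree (χ : G → ℂ)))
    (H703.Lat.inv_deg (lr p m)) (m := m) fun χ _ => dvd_lr m _
  have h1 : charDegree (fun _ : G => (1 : ℂ)) = 1 := by
    unfold charDegree
    simp
  simpa only [h1] using h

end Cfsg.Agent.H605.XZ
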