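import Cfsg.Agent.H605.XZ.Strict

/-!
# S4791: the primes `2`, `3`, `5`, `7` (helper605)

* `two_le_x0`, `three_le_x0` : `p = 2`.
* `three_le_x0'` : `p = 3`.
* `four_le_x0`, `five_le_x0` : `p = 5`.
* `four_le_x0'`, `five_le_x0'` : `p = 7`.
-/

set_option autoImplicit false

namespace Cfsg.Agent.H605.XZ

open Cfsg Cfsg.Agent.Characters Cfsg.Agent.Characters.Core Cfsg.Agent.H674.XZ
open Cfsg.Agent.Blocks.Local

universe u

section small

variable {p : ℕ} {M : Ideal AlgInt} {G : Type u} [Group G] [Finite G]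

theorem lr_mod (m : ℤ) (n : ℕ) : lr p m n = Int.bmod (m * ((n % p : ℕ) : ℤ)) p := by
  unfold lr
  push_cast
  rw [Int.bmod_def, Int.bmod_def, Int.mul_emod, Int.mul_emod m ((n : ℤ) % p), Int.emod_emod]

/-- `p = 2` -/
theorem two_le_x0 (hM : IsPModular 2 M) (hG : 2 ∣ Nat.card G) : 2 ≤ x0 2 M G := by
  have : Fact (Nat.Prime 2) := ⟨Nat.prime_two⟩
  have h := lattice0 hM hG (c := fun _ : IrrCharacter G => 1) (fun _ _ _ => rfl) (m := 1) fun χ hχ => by
    have h1 := (mem_X0.1 hχ).2.1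
    omega
  rw [← card_X0]
  simp only [abs_one, one_pow, Finset.sum_const, nsmul_eq_mul, mul_one] at h
  exact_mod_cast h

/-- **`p = 2`, a Sylow subgroup is not cyclic.** -/
theorem three_le_x0 (hM : IsPModular 2 M) (P : Sylow 2 G) (hP : ¬ IsCyclic (P : Subgroup G)) :
    3 ≤ x0 2 M G := by
  have : Fact (Nat.Prime 2) := ⟨Nat.prime_two⟩
  have hG : 2 ∣ Nat.card G := dvd_card_of_not_cyclic P hP
  have h1 := two_le_x0 hM hG
  by_contra hcon
  have h2 : x0 2 M G = 2 := by omega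
  refine no_equality hM P hP (c := fun _ : IrrCharacter G => 1) (fun _ _ _ => rfl) (m := 1) (by omega) (fun χ hχ => ?_) ?_
  · have h1 := (mem_X0.1 hχ).2.1
    omega
  · rw [← card_X0] at h2
    simp only [one_pow, Finset.sum_const, nsmul_eq_mul, mul_one]
    rw [h2]

/-- the equality case for the least absolute residues -/
theorem lattice_lr_ne [hp : Fact p.Prime] (hM : IsPModular p M) (P : Sylow p G) (hP : ¬ IsCyclic (P : Subgroup G)) {m : ℤ}
    (hm : ¬ (p : ℤ) ∣ m) : ∑ χ ∈ X0 p M G, lr p m (charDegree (χ : G → ℂ)) ^ 2 ≠ (p : ℤ) * lr p m 1 := by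
  intro h
  have h1 : charDegree (fun _ : G => (1 : ℂ)) = 1 := by
    unfold charDegree
    simp
  refine no_equality hM P hP (c := fun χ : IrrCharacter G => lr p m (charDegree (χ : G → ℂ)))
    (H703.Lat.inv_deg (lr p m)) hm (fun χ _ => dvd_lr m _) ?_
  rw [h1]
  exact h

/-- the divisibility for the least absolute residues -/
theorem dvd_sum_lr [hp : Fact p.Prime] (hM : IsPModular p M) (hG : p ∣ Nat.card G) :
    (p : ℤ) ∣ ∑ χ ∈ X0 p M G, lr p 1 (charDegree (χ : G → ℂ)) ^ 2 := by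
  have h1 := dvd_sum_sq0 hM hG
  have h2 : (p : ℤ) ∣ ∑ χ ∈ X0 p M G, lr p 1 (charDegree (χ : G → ℂ)) ^ 2 -
      ∑ χ ∈ X0 p M G, (charDegree (χ : G → ℂ) : ℤ) ^ 2 := by
    rw [← Finset.sum_sub_distrib]
    refine Finset.dvd_sum fun χ _ => ?_
    have h3 := dvd_lr (p := p) 1 (charDegree (χ : G → ℂ))
    rw [one_mul] at h3
    rw [sq_sub_sq]
    exact Dvd.dvd.mul_left h3 _
  have := dvd_add h2 h1
  rwa [sub_add_cancel] at this

/-- `p = 3` -/
theorem three_le_x0' (hM : IsPModular 3 M) (hG : 3 ∣ Nat.card G) : 3 ≤ x0 3 M G := by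
  have : Fact (Nat.Prime 3) := ⟨Nat.prime_three⟩
  have h := lattice_lr hM hG 1
  have h1 : ∑ χ ∈ X0 3 M G, lr 3 1 (charDegree (χ : G → ℂ)) ^ 2 = ∑ χ ∈ X0 3 M G, 1 := by
    refine Finset.sum_congr rfl fun χ hχ => ?_
    have h2 := (mem_X0.1 hχ).2.1
    rw [lr_mod]
    have h3 : charDegree (χ : G → ℂ) % 3 = 1 ∨ charDegree (χ : G → ℂ) % 3 = 2 := by omega
    rcases h3 with h3 | h3 <;> rw [h3] <;> decide
  rw [h1] at h
  rw [← card_X0]
  have h4 : |lr 3 1 1| = 1 := by decide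
  rw [h4] at h
  simp only [Finset.sum_const, nsmul_eq_mul, mul_one] at h
  exact_mod_cast h

open Classical in
/-- number of the members of `X0` with degree `≡ ± j` -/
noncomputable def cn (p : ℕ) (M : Ideal AlgInt) (G : Type u) [Group G] [Finite G] (j : ℕ) : ℤ :=
  ∑ χ ∈ X0 p M G, if charDegree (χ : G → ℂ) % p = j ∨ charDegree (χ : G → ℂ) % p = p - j then 1 else 0

theorem cn_nonneg (j : ℕ) : 0 ≤ cn p M G j := Finset.sum_nonneg fun χ _ => by split_ifs <;> decide

theorem sum_five (f : ℕ → ℤ) (x y : ℤ) (h1 : f 1 = x) (h4 : f 4 = x) (h2 : f 2 = y) (h3 : f 3 = y)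
    (hf : ∀ n, f n = f (n % 5)) : ∑ χ ∈ X0 5 M G, f (charDegree (χ : G → ℂ)) = x * cn 5 M G 1 + y * cn 5 M G 2 := by
  unfold cn
  rw [Finset.mul_sum, Finset.mul_sum, ← Finset.sum_add_distrib]
  refine Finset.sum_congr rfl fun χ hχ => ?_
  have h5 := (mem_X0.1 hχ).2.1
  rw [hf]
  have h6 : charDegree (χ : G → ℂ) % 5 = 1 ∨ charDegree (χ : G → ℂ) % 5 = 2 ∨ charDegree (χ : G → ℂ) % 5 = 3 ∨
    charDegree (χ : G → ℂ) % 5 = 4 := by omega
  rcases h6 with h | h | h | h <;> rw [h] <;> simp [h1, h2, h3, h4]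

theorem sum_seven (f : ℕ → ℤ) (x y z : ℤ) (h1 : f 1 = x) (h6 : f 6 = x) (h2 : f 2 = y) (h5 : f 5 = y) (h3 : f 3 = z)
    (h4 : f 4 = z) (hf : ∀ n, f n = f (n % 7)) :
    ∑ χ ∈ X0 7 M G, f (charDegree (χ : G → ℂ)) = x * cn 7 M G 1 + y * cn 7 M G 2 + z * cn 7 M G 3 := by
  unfold cn
  rw [Finset.mul_sum, Finset.mul_sum, Finset.mul_sum, ← Finset.sum_add_distrib, ← Finset.sum_add_distrib]
  refine Finset.sum_congr rfl fun χ hχ => ?_
  have h7 := (mem_X0.1 hχ).2.1
  rw [hf]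
  have h8 : charDegree (χ : G → ℂ) % 7 = 1 ∨ charDegree (χ : G → ℂ) % 7 = 2 ∨ charDegree (χ : G → ℂ) % 7 = 3 ∨
    charDegree (χ : G → ℂ) % 7 = 4 ∨ charDegree (χ : G → ℂ) % 7 = 5 ∨ charDegree (χ : G → ℂ) % 7 = 6 := by omega
  rcases h8 with h | h | h | h | h | h <;> rw [h] <;> simp [h1, h2, h3, h4, h5, h6]

theorem sq_mod (m : ℤ) (n : ℕ) : lr p m n ^ 2 = lr p m (n % p) ^ 2 := by
  rw [lr_mod, lr_mod m (n % p), Nat.mod_mod]

/-- `p = 5` -/
theorem four_le_x0 (hM : IsPModular 5 M) (hG : 5 ∣ Nat.card G) : 4 ≤ x0 5 M G := by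
  have : Fact (Nat.Prime 5) := ⟨Nat.prime_five⟩
  have a0 := cn_nonneg (p := 5) (M := M) (G := G) 1
  have b0 := cn_nonneg (p := 5) (M := M) (G := G) 2
  have hx := sum_five (M := M) (G := G) (fun _ => 1) 1 1 rfl rfl rfl rfl fun _ => rfl
  have hd := dvd_sum_lr hM hG
  have e1 := sum_five (M := M) (G := G) (fun n => lr 5 1 n ^ 2) 1 4 (by decide) (by decide) (by decide) (by decide)
    fun n => sq_mod 1 n
  have e2 := sum_five (M := M) (G := G) (fun n => lr 5 2 n ^ 2) 4 1 (by decide) (by decide) (by decide) (by decide)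
    fun n => sq_mod 2 n
  have l2 := lattice_lr hM hG 2
  have h4 : |lr 5 2 1| = 2 := by decide
  rw [h4] at l2
  simp only [Finset.sum_const, nsmul_eq_mul, mul_one, card_X0] at hx
  beta_reduce at e1 e2
  rw [e1] at hd
  rw [e2] at l2
  push_cast at hd l2
  by_contra hcon
  have ha : cn 5 M G 1 ≤ 3 := by omega
  have hb : cn 5 M G 2 ≤ 3 := by omega
  generalize cn 5 M G 1 = a at *
  generalize cn 5 M G 2 = b at *
  interval_cases a <;> interval_cases b <;> omega

/-- **`p = 5`, a Sylow subgroup is not cyclic.** -/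
theorem five_le_x0 (hM : IsPModular 5 M) (P : Sylow 5 G) (hP : ¬ IsCyclic (P : Subgroup G)) : 5 ≤ x0 5 M G := by
  have : Fact (Nat.Prime 5) := ⟨Nat.prime_five⟩
  have hG : 5 ∣ Nat.card G := dvd_card_of_not_cyclic P hP
  have a0 := cn_nonneg (p := 5) (M := M) (G := G) 1
  have b0 := cn_nonneg (p := 5) (M := M) (G := G) 2
  have hx := sum_five (M := M) (G := G) (fun _ => 1) 1 1 rfl rfl rfl rfl fun _ => rfl
  have hd := dvd_sum_lr hM hG
  have e1 := sum_five (M := M) (G := G) (fun n => lr 5 1 n ^ 2) 1 4 (by decide) (by decide) (by decide) (by decide)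
    fun n => sq_mod 1 n
  have e2 := sum_five (M := M) (G := G) (fun n => lr 5 2 n ^ 2) 4 1 (by decide) (by decide) (by decide) (by decide)
    fun n => sq_mod 2 n
  have l2 := lattice_lr hM hG 2
  have n2 := lattice_lr_ne hM P hP (m := 2) (by omega)
  have h4 : |lr 5 2 1| = 2 := by decide
  have h5 : lr 5 2 1 = 2 := by decide
  rw [h4] at l2
  rw [h5] at n2
  simp only [Finset.sum_const, nsmul_eq_mul, mul_one, card_X0] at hx
  beta_reduce at e1 e2
  rw [e1] at hd
  rw [e2] at l2 n2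
  push_cast at hd l2 n2
  by_contra hcon
  have ha : cn 5 M G 1 ≤ 4 := by omega
  have hb : cn 5 M G 2 ≤ 4 := by omega
  generalize cn 5 M G 1 = a at *
  generalize cn 5 M G 2 = b at *
  interval_cases a <;> interval_cases b <;> omega

/-- `p = 7` -/
theorem four_le_x0' (hM : IsPModular 7 M) (hG : 7 ∣ Nat.card G) : 4 ≤ x0 7 M G := by
  have : Fact (Nat.Prime 7) := ⟨by norm_num⟩
  have a0 := cn_nonneg (p := 7) (M := M) (G := G) 1
  have b0 := cn_nonneg (p := 7) (M := M) (G := G) 2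
  have c0 := cn_nonneg (p := 7) (M := M) (G := G) 3
  have hx := sum_seven (M := M) (G := G) (fun _ => 1) 1 1 1 rfl rfl rfl rfl rfl rfl fun _ => rfl
  have e1 := sum_seven (M := M) (G := G) (fun n => lr 7 1 n ^ 2) 1 4 9 (by decide) (by decide) (by decide) (by decide)
    (by decide) (by decide) fun n => sq_mod 1 n
  have e2 := sum_seven (M := M) (G := G) (fun n => lr 7 2 n ^ 2) 4 9 1 (by decide) (by decide) (by decide) (by decide)
    (by decide) (by decide) fun n => sq_mod 2 n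
  have e3 := sum_seven (M := M) (G := G) (fun n => lr 7 3 n ^ 2) 9 1 4 (by decide) (by decide) (by decide) (by decide)
    (by decide) (by decide) fun n => sq_mod 3 n
  have l2 := lattice_lr hM hG 2
  have l3 := lattice_lr hM hG 3
  have h2 : |lr 7 2 1| = 2 := by decide
  have h3 : |lr 7 3 1| = 3 := by decide
  rw [h2] at l2
  rw [h3] at l3
  simp only [Finset.sum_const, nsmul_eq_mul, mul_one, card_X0] at hx
  beta_reduce at e1 e2 e3
  rw [e2] at l2
  rw [e3] at l3
  push_cast at l2 l3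
  omega

/-- **`p = 7`, a Sylow subgroup is not cyclic.** -/
theorem five_le_x0' (hM : IsPModular 7 M) (P : Sylow 7 G) (hP : ¬ IsCyclic (P : Subgroup G)) : 5 ≤ x0 7 M G := by
  have : Fact (Nat.Prime 7) := ⟨by norm_num⟩
  have hG : 7 ∣ Nat.card G := dvd_card_of_not_cyclic P hP
  have a0 := cn_nonneg (p := 7) (M := M) (G := G) 1
  have b0 := cn_nonneg (p := 7) (M := M) (G := G) 2
  have c0 := cn_nonneg (p := 7) (M := M) (G := G) 3
  have hx := sum_seven (M := M) (G := G) (fun _ => 1) 1 1 1 rfl rfl rfl rfl rfl rfl fun _ => rfl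
  have hd := dvd_sum_lr hM hG
  have e1 := sum_seven (M := M) (G := G) (fun n => lr 7 1 n ^ 2) 1 4 9 (by decide) (by decide) (by decide) (by decide)
    (by decide) (by decide) fun n => sq_mod 1 n
  have e2 := sum_seven (M := M) (G := G) (fun n => lr 7 2 n ^ 2) 4 9 1 (by decide) (by decide) (by decide) (by decide)
    (by decide) (by decide) fun n => sq_mod 2 n
  have e3 := sum_seven (M := M) (G := G) (fun n => lr 7 3 n ^ 2) 9 1 4 (by decide) (by decide) (by decide) (by decide)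
    (by decide) (by decide) fun n => sq_mod 3 n
  have l1 := lattice_lr hM hG 1
  have l2 := lattice_lr hM hG 2
  have l3 := lattice_lr hM hG 3
  have n1 := lattice_lr_ne hM P hP (m := 1) (by omega)
  have h1 : |lr 7 1 1| = 1 := by decide
  have h2 : |lr 7 2 1| = 2 := by decide
  have h3 : |lr 7 3 1| = 3 := by decide
  have h1' : lr 7 1 1 = 1 := by decide
  rw [h1] at l1
  rw [h2] at l2
  rw [h3] at l3
  rw [h1'] at n1
  simp only [Finset.sum_const, nsmul_eq_mul, mul_one, card_X0] at hx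
  beta_reduce at e1 e2 e3
  rw [e1] at hd l1 n1
  rw [e2] at l2
  rw [e3] at l3
  push_cast at hd l1 l2 l3 n1
  by_contra hcon
  have ha : cn 7 M G 1 ≤ 4 := by omega
  have hb : cn 7 M G 2 ≤ 4 := by omega
  generalize cn 7 M G 1 = a at *
  generalize cn 7 M G 2 = b at *
  generalize cn 7 M G 3 = c at *
  interval_cases a <;> interval_cases b <;> omega

end small

end Cfsg.Agent.H605.XZ
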