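import Cfsg.Agent.H605.XZ.Lat
import Cfsg.Agent.Lib.FrattiniPGroup
import Cfsg.Agent.Characters.Linear

/-!
# S4791: strictness, `P` not cyclic (helper605)

* `exists_family` : `p ^ 2` linear characters of exponent `p` of a noncyclic `p`-group.
* `no_equality` : the lattice inequality for `X0` is strict if a Sylow `p`-subgroup is not cyclic.
* `three_le_x0` (`p = 2`), `five_le_x0` (`p = 5`).
-/

set_option autoImplicit false

open scoped ComplexConjugate

namespace Cfsg.Agent.H605.XZ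

open Cfsg Cfsg.Agent.Characters Cfsg.Agent.Characters.Core Cfsg.Agent.H674.XZ
open Cfsg.Agent.Blocks.Local

universe u

/-! ### linear characters -/

section family

variable {P : Type u} [Group P] [Finite P] {p : ℕ} [hp : Fact p.Prime]

theorem exists_hom (hP : IsPGroup p P) {N : Subgroup P} (hN : IsCoatom N) :
    ∃ l : P →* ℂˣ, (∀ x ∈ N, l x = 1) ∧ (∃ x, l x ≠ 1) ∧ ∀ x, l x ^ p = 1 := by
  have hidx := Cfsg.Agent.Lib.FrattiniPGroup.index_of_coatom hP hN
  have hNn : N.Normal := Cfsg.Agent.Lib.FrattiniPGroup.normal_of_coatom hP hN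
  have hcard : Nat.card (P ⧸ N) = p := hidx
  have hcyc : IsCyclic (P ⧸ N) := isCyclic_of_prime_card hcard
  let : CommGroup (P ⧸ N) := IsCyclic.commGroup
  have : Nontrivial (P ⧸ N) := by
    rw [← Finite.one_lt_card_iff_nontrivial, hcard]
    exact hp.out.one_lt
  obtain ⟨a, ha⟩ := exists_ne (1 : P ⧸ N)
  have : NeZero (Monoid.exponent (P ⧸ N)) := ⟨Monoid.exponent_ne_zero_of_finite⟩
  obtain ⟨φ, hφ⟩ := CommGroup.exists_apply_ne_one_of_hasEnoughRootsOfUnity (P ⧸ N) ℂ ha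
  refine ⟨φ.comp (QuotientGroup.mk' N), fun x hx => ?_, ?_, fun x => ?_⟩
  · rw [MonoidHom.comp_apply]
    have h : (QuotientGroup.mk' N) x = 1 := (QuotientGroup.eq_one_iff x).2 hx
    rw [h, map_one]
  · obtain ⟨x, rfl⟩ := QuotientGroup.mk'_surjective N a
    exact ⟨x, hφ⟩
  · rw [MonoidHom.comp_apply, ← map_pow, ← hcard, pow_card_eq_one', map_one]

theorem exists_family (hP : IsPGroup p P) (hc : ¬ IsCyclic P) :
    ∃ f : Fin p × Fin p → (P →* ℂˣ), Function.Injective f ∧ ∀ i x, (f i x) ^ p = 1 := by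
  have hnt : Nontrivial P := by
    rw [← not_subsingleton_iff_nontrivial]
    intro h
    exact hc inferInstance
  have h1 : ∀ x : P, Subgroup.zpowers x ≠ ⊤ := by
    intro x hx
    exact hc ⟨x, fun y => Subgroup.mem_zpowers_iff.1 (by rw [hx]; exact Subgroup.mem_top y)⟩
  obtain ⟨M₁, hM₁, -⟩ := (eq_top_or_exists_le_coatom (Subgroup.zpowers (1 : P))).resolve_left (h1 1)
  obtain ⟨x, hx⟩ : ∃ x, x ∉ M₁ := by
    by_contra hcon
    push Not at hcon
    exact hM₁.1 ((Subgroup.eq_top_iff' M₁).2 hcon)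
  obtain ⟨M₂, hM₂, hxM⟩ := (eq_top_or_exists_le_coatom (Subgroup.zpowers x)).resolve_left (h1 x)
  have hx2 : x ∈ M₂ := hxM (Subgroup.mem_zpowers x)
  obtain ⟨l₁, h11, h12, h13⟩ := exists_hom hP hM₁
  obtain ⟨l₂, h21, h22, h23⟩ := exists_hom hP hM₂
  have hl1 : l₁ x ≠ 1 := by
    intro h
    have h2 : M₁ ≤ l₁.ker := fun y hy => h11 y hy
    have h3 : l₁.ker = M₁ := by
      rcases eq_or_lt_of_le h2 with h4 | h4
      · exact h4.symm
      · exfalso
        obtain ⟨y, hy⟩ := h12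
        apply hy
        have h5 : l₁.ker = ⊤ := hM₁.2 _ h4
        have h6 : y ∈ l₁.ker := by rw [h5]; exact Subgroup.mem_top y
        exact h6
    exact hx (h3 ▸ h)
  obtain ⟨y, hy⟩ := h22
  have key : ∀ (z : ℂˣ), z ^ p = 1 → z ≠ 1 → ∀ i j : Fin p, z ^ (i : ℕ) = z ^ (j : ℕ) → i = j := by
    intro z hz hz1 i j hij
    have ho : orderOf z = p := orderOf_eq_prime hz hz1
    have h2 := pow_injOn_Iio_orderOf (x := z) (by rw [ho]; exact i.2) (by rw [ho]; exact j.2) hij
    exact Fin.ext h2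
  refine ⟨fun i => l₁ ^ (i.1 : ℕ) * l₂ ^ (i.2 : ℕ), ?_, ?_⟩
  · rintro ⟨i, j⟩ ⟨i', j'⟩ h
    have h2 : ∀ z, l₁ z ^ (i : ℕ) * l₂ z ^ (j : ℕ) = l₁ z ^ (i' : ℕ) * l₂ z ^ (j' : ℕ) := fun z => by
      have := DFunLike.congr_fun h z
      simpa using this
    have h3 : i = i' := by
      have h4 := h2 x
      rw [h21 x hx2, one_pow, one_pow, mul_one, mul_one] at h4
      exact key _ (h13 x) hl1 i i' h4
    subst h3
    have h5 := mul_left_cancel (h2 y)
    rw [key _ (h23 y) hy j j' h5]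
  · rintro ⟨i, j⟩ z
    show (l₁ z ^ (i : ℕ) * l₂ z ^ (j : ℕ)) ^ p = 1
    rw [mul_pow, ← pow_mul, ← pow_mul, mul_comm (i : ℕ), mul_comm (j : ℕ), pow_mul, pow_mul, h13, h23, one_pow, one_pow,
      one_mul]

end family

/-! ### the multiplicities -/

section mult

variable {p : ℕ} {M : Ideal AlgInt} {G : Type u} [Group G] [Finite G]

omit [Finite G] in
/-- restriction to `P` -/
theorem isCharacter_res (P : Subgroup G) (χ : IrrCharacter G) : IsCharacter P (fun x : P => (χ : G → ℂ) x) :=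
  isCharacter_comp P.subtype (isIrr_isCharacter χ.2)

theorem exists_aa (P : Subgroup G) (l : P →* ℂˣ) (χ : IrrCharacter G) :
    ∃ n : ℕ, ip (fun x : P => (χ : G → ℂ) x) (fun x => (l x : ℂ)) = n :=
  ip_nat (isCharacter_res P χ) (isIrr_isCharacter (Cfsg.Agent.Characters.Linear.isIrrCharacter_hom l))

/-- the multiplicity of `l` in the restriction of `χ` to `P` -/
noncomputable def aa (P : Subgroup G) (l : P →* ℂˣ) (χ : IrrCharacter G) : ℕ := (exists_aa P l χ).choose

theorem aa_eq (P : Subgroup G) (l : P →* ℂˣ) (χ : IrrCharacter G) [Fintype P] :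
    classInner (fun x : P => (χ : G → ℂ) x) (fun x => (l x : ℂ)) = aa P l χ := by
  rw [← ip_eq]
  exact (exists_aa P l χ).choose_spec

/-- weak block orthogonality -/
theorem sum_block_eq_zero [hp : Fact p.Prime] (hM : IsPModular p M) {x : G} (hx : p ∣ orderOf x) :
    ∑ χ ∈ H703.Lat.B0 M G, (charDegree (χ : G → ℂ) : ℂ) * (χ : G → ℂ) x = 0 := by
  have hB : IsPBlock M (principalBlock M G) :=
    ⟨⟨fun _ => 1, Cfsg.Agent.Blocks.Basic.isIrrCharacter_one⟩, rfl⟩
  have h1 : p ∣ orderOf x⁻¹ := by rwa [orderOf_inv]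
  have h2 : blockCoeff (principalBlock M G) x⁻¹ = 0 := by
    rw [Cfsg.Agent.Blocks.Basic.blockCoeff_def,
      Cfsg.Agent.S0907.result p M hM _ hB 1 x⁻¹ (by rw [orderOf_one]; exact hp.out.not_dvd_one) h1, mul_zero]
  rw [H703.Lat.blockCoeff_inv (principalBlock M G) (fun _ => H703.Lat.mem_B0) x] at h2
  exact (mul_eq_zero.1 h2).resolve_left (inv_ne_zero card_ne_zero_complex)

omit [Finite G] in
theorem dvd_orderOf [hp : Fact p.Prime] (P : Sylow p G) {x : (P : Subgroup G)} (hx : x ≠ 1) : p ∣ orderOf (x : G) := by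
  obtain ⟨k, hk⟩ := IsPGroup.iff_orderOf.1 P.isPGroup' x
  rw [Subgroup.orderOf_coe, hk]
  rcases Nat.eq_zero_or_pos k with h | h
  · exfalso
    rw [h, pow_zero, orderOf_eq_one_iff] at hk
    exact hx hk
  · exact dvd_pow_self p h.ne'

/-- the sum of `χ(1) [χ_P, l]` over the block is `(1 / |P|) ∑ χ(1)²` -/
theorem sum_aa [hp : Fact p.Prime] (hM : IsPModular p M) (P : Sylow p G) (l : (P : Subgroup G) →* ℂˣ) :
    (Nat.card P : ℂ) * ∑ χ ∈ H703.Lat.B0 M G, (charDegree (χ : G → ℂ) : ℂ) * (aa (P : Subgroup G) l χ : ℂ) =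
      ∑ χ ∈ H703.Lat.B0 M G, (charDegree (χ : G → ℂ) : ℂ) ^ 2 := by
  classical
  let : Fintype (P : Subgroup G) := Fintype.ofFinite _
  have hc : (Nat.card P : ℂ) ≠ 0 := card_ne_zero_complex
  have h1 : ∀ χ : IrrCharacter G, (Nat.card P : ℂ) * ((charDegree (χ : G → ℂ) : ℂ) * (aa (P : Subgroup G) l χ : ℂ)) =
      ∑ x : (P : Subgroup G), conj (l x : ℂ) * ((charDegree (χ : G → ℂ) : ℂ) * (χ : G → ℂ) x) := by
    intro χ
    rw [← aa_eq, classInner_def, mul_left_comm, ← mul_assoc (Nat.card P : ℂ), mul_inv_cancel₀ hc, one_mul, Finset.mul_sum]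
    refine Finset.sum_congr rfl fun x _ => ?_
    ring
  rw [Finset.mul_sum, Finset.sum_congr rfl fun χ _ => h1 χ, Finset.sum_comm]
  rw [Finset.sum_eq_single_of_mem (1 : (P : Subgroup G)) (Finset.mem_univ _)]
  · refine Finset.sum_congr rfl fun χ _ => ?_
    rw [map_one, Units.val_one, map_one, one_mul, Subgroup.coe_one, H667.BR.charDegree_cast, sq]
  · intro x _ hx
    rw [← Finset.mul_sum, sum_block_eq_zero hM (dvd_orderOf P hx), mul_zero]

/-- the sum of `χ(1) [χ_P, l]` over the block is prime to `p` -/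
theorem not_dvd_sum_aa [hp : Fact p.Prime] (hM : IsPModular p M) (P : Sylow p G) (l : (P : Subgroup G) →* ℂˣ) :
    ¬ (p : ℤ) ∣ ∑ χ ∈ H703.Lat.B0 M G, (charDegree (χ : G → ℂ) : ℤ) * (aa (P : Subgroup G) l χ : ℤ) := by
  classical
  have hMp : M.IsPrime := hM.2.1.isPrime
  intro hdvd
  have hG : (Nat.card G : ℂ) ≠ 0 := card_ne_zero_complex
  have hPc : (Nat.card P : ℂ) ≠ 0 := card_ne_zero_complex
  have h1 := Cfsg.Agent.S0940.result p M hM (1 : G) (by rw [orderOf_one]; exact hp.out.not_dvd_one)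
  have h2 : blockCoeff (principalBlock M G) 1 = (Nat.card G : ℂ)⁻¹ *
      ∑ χ ∈ H703.Lat.B0 M G, (charDegree (χ : G → ℂ) : ℂ) ^ 2 := by
    have h3 := H703.Lat.blockCoeff_inv (principalBlock M G) (fun _ => H703.Lat.mem_B0) (1 : G)
    rw [inv_one] at h3
    rw [h3]
    congr 1
    exact Finset.sum_congr rfl fun χ _ => by rw [H667.BR.charDegree_cast, sq]
  have hidx : (Nat.card G : ℂ) = Nat.card P * ((P : Subgroup G).index : ℂ) := by
    rw [← Nat.cast_mul, Subgroup.card_mul_index]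
  have hi : ¬ p ∣ (P : Subgroup G).index := P.not_dvd_index
  have h4 : MemLocalIdeal M (blockCoeff (principalBlock M G) 1) := by
    obtain ⟨k, hk⟩ := hdvd
    have h5 : ∑ χ ∈ H703.Lat.B0 M G, (charDegree (χ : G → ℂ) : ℂ) * (aa (P : Subgroup G) l χ : ℂ) = (p : ℂ) * k := by
      have := congrArg (Int.cast (R := ℂ)) hk
      push_cast at this
      exact this
    have hi0 : ((P : Subgroup G).index : ℂ) ≠ 0 := by
      intro h
      rw [h, mul_zero] at hidx
      exact hG hidx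
    have h6 : blockCoeff (principalBlock M G) 1 = (p : ℂ) * (k * ((P : Subgroup G).index : ℂ)⁻¹) := by
      rw [h2, ← sum_aa hM P l, h5, hidx]
      field_simp
    rw [h6]
    exact memLocalIdeal_mul_right (memLocalIdeal_p hM)
      (memLocalRing_mul (memLocalRing_intCast k) (memLocalRing_inv_natCast hM hi))
  have h7 : Nat.card {xy : G × G // (∃ k : ℕ, orderOf xy.1 = p ^ k) ∧ ¬ p ∣ orderOf xy.2 ∧ xy.1 * xy.2 = 1} = 1 := by
    rw [Nat.card_eq_one_iff_unique]
    have hall : ∀ x y : G, (∃ k : ℕ, orderOf x = p ^ k) → ¬ p ∣ orderOf y → x * y = 1 → x = 1 ∧ y = 1 := by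
      rintro x y ⟨k, hk⟩ hy hxy
      have h8 : y = x⁻¹ := (inv_eq_of_mul_eq_one_right hxy).symm
      subst h8
      rw [orderOf_inv, hk] at hy
      have h9 : k = 0 := by
        by_contra h9
        exact hy (dvd_pow_self p h9)
      rw [h9, pow_zero, orderOf_eq_one_iff] at hk
      rw [hk, inv_one]
      exact ⟨rfl, rfl⟩
    refine ⟨⟨?_⟩, ⟨⟨(1, 1), ⟨0, by rw [orderOf_one, pow_zero]⟩, by rw [orderOf_one]; exact hp.out.not_dvd_one, mul_one 1⟩⟩⟩
    rintro ⟨⟨a, b⟩, h1, h2, h3⟩ ⟨⟨c, d⟩, h4, h5, h6⟩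
    obtain ⟨rfl, rfl⟩ := hall a b h1 h2 h3
    obtain ⟨rfl, rfl⟩ := hall c d h4 h5 h6
    rfl
  rw [h7, Nat.cast_one] at h1
  have h8 := memLocalIdeal_sub h4 h1
  rw [sub_sub_cancel] at h8
  have hne : Nonempty {y : G // ¬ p ∣ orderOf y} := ⟨⟨1, by rw [orderOf_one]; exact hp.out.not_dvd_one⟩⟩
  have h9 : ((Nat.card {y : G // ¬ p ∣ orderOf y} : ℕ) : ℂ) ≠ 0 := by
    exact_mod_cast (Nat.card_pos (α := {y : G // ¬ p ∣ orderOf y})).ne'
  have h10 := memLocalIdeal_mul_left (memLocalRing_natCast (M := M) (Nat.card {y : G // ¬ p ∣ orderOf y})) h8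
  rw [mul_one_div_cancel h9] at h10
  exact not_memLocalIdeal_one h10

/-- invariance of the multiplicities -/
theorem aa_pw (hG : p ∣ Nat.card G) (P : Subgroup G) {l : P →* ℂˣ} (hl : ∀ x, l x ^ p = 1)
    {u : (ZMod (Nat.card G))ˣ} (hu : u ∈ JJ p G) (χ : IrrCharacter G) : aa P l (pw u χ) = aa P l χ := by
  have := Fintype.ofFinite P
  have h1 : ex u ≡ 1 [MOD p] := by
    refine ((mem_JJ (p := p) u).1 hu).of_dvd ?_
    exact Nat.dvd_gcd hG (Dvd.intro _ rfl)
  have h2 : ∀ x : P, l (x ^ ex u) = l x := by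
    intro x
    rw [map_pow]
    have h3 : orderOf (l x) ∣ p := orderOf_dvd_of_pow_eq_one (hl x)
    have h4 : l x ^ ex u = l x ^ 1 := by
      rw [pow_eq_pow_iff_modEq]
      exact h1.of_dvd h3
    rw [h4, pow_one]
  have h5 : (Nat.card P).Coprime (ex u) :=
    (Nat.Coprime.coprime_dvd_right (Subgroup.card_subgroup_dvd_card P) (ex_coprime u)).symm
  have h6 : ((aa P l (pw u χ) : ℕ) : ℂ) = ((aa P l χ : ℕ) : ℂ) := by
    rw [← aa_eq, ← aa_eq, classInner_def, classInner_def]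
    congr 1
    refine Fintype.sum_equiv (powCoprime h5) _ _ fun x => ?_
    change (χ : G → ℂ) ((x : G) ^ ex u) * conj (l x : ℂ) = (χ : G → ℂ) ((x ^ ex u : P) : G) * conj (l (x ^ ex u) : ℂ)
    rw [h2, Subgroup.coe_pow]
  exact_mod_cast h6

/-- the same for `X0` -/
theorem not_dvd_sum_aa0 [hp : Fact p.Prime] (hM : IsPModular p M) (hG : p ∣ Nat.card G) (P : Sylow p G)
    {l : (P : Subgroup G) →* ℂˣ} (hl : ∀ x, l x ^ p = 1) :
    ¬ (p : ℤ) ∣ ∑ χ ∈ X0 p M G, (aa (P : Subgroup G) l χ : ℤ) * (charDegree (χ : G → ℂ) : ℤ) := by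
  classical
  have hfin : Finite (IrrCharacter G) := finite_irr
  let : Fintype (IrrCharacter G) := Fintype.ofFinite _
  have h1 := bsum_modEq_xsum (p := p) (M := M) (G := G) (fun χ => (aa (P : Subgroup G) l χ : ℤ))
    (fun u hu χ => by rw [aa_pw hG _ hl hu])
  have h2 : bsum M (fun χ : IrrCharacter G => (aa (P : Subgroup G) l χ : ℤ)) =
      ∑ χ ∈ H703.Lat.B0 M G, (charDegree (χ : G → ℂ) : ℤ) * (aa (P : Subgroup G) l χ : ℤ) := by
    unfold bsum
    rw [← Finset.sum_filter]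
    refine Finset.sum_congr ?_ fun χ _ => mul_comm _ _
    ext χ
    rw [Finset.mem_filter, H703.Lat.mem_B0]
    exact ⟨fun h => h.2, fun h => ⟨Finset.mem_univ _, h⟩⟩
  have h3 : xsum p M (fun χ : IrrCharacter G => (aa (P : Subgroup G) l χ : ℤ)) =
      ∑ χ ∈ X0 p M G, (aa (P : Subgroup G) l χ : ℤ) * (charDegree (χ : G → ℂ) : ℤ) := by
    unfold xsum
    rw [← Finset.sum_filter]
    refine Finset.sum_congr ?_ fun χ _ => rfl
    ext χ
    rw [Finset.mem_filter, mem_X0]
    exact ⟨fun h => h.2, fun h => ⟨Finset.mem_univ _, h⟩⟩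
  rw [h2, h3] at h1
  intro h4
  exact not_dvd_sum_aa hM P l ((Int.ModEq.dvd_iff h1).2 h4)

theorem dvd_card_of_not_cyclic [hp : Fact p.Prime] (P : Sylow p G) (hP : ¬ IsCyclic (P : Subgroup G)) :
    p ∣ Nat.card G := by
  by_contra hG
  apply hP
  have h1 : Nat.card (P : Subgroup G) = 1 := by
    obtain ⟨k, hk⟩ := P.isPGroup'.exists_card_eq
    rcases Nat.eq_zero_or_pos k with h | h
    · rw [hk, h, pow_zero]
    · exfalso
      apply hG
      have h2 : p ∣ Nat.card (P : Subgroup G) := by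
        rw [hk]
        exact dvd_pow_self p h.ne'
      exact h2.trans (Subgroup.card_subgroup_dvd_card _)
  have := Nat.card_eq_one_iff_unique.1 h1
  have := this.1
  infer_instance

/-- **Strictness of the lattice inequality for `X0`.** -/
theorem no_equality [hp : Fact p.Prime] (hM : IsPModular p M) (P : Sylow p G) (hP : ¬ IsCyclic (P : Subgroup G))
    {c : IrrCharacter G → ℤ} (hc : H703.Lat.Inv c) {m : ℤ} (hm : ¬ (p : ℤ) ∣ m)
    (hcm : ∀ χ ∈ X0 p M G, (p : ℤ) ∣ c χ - m * charDegree (χ : G → ℂ))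
    (heq : ∑ χ ∈ X0 p M G, c χ ^ 2 = (p : ℤ) * c ⟨fun _ => 1, Cfsg.Agent.Blocks.Basic.isIrrCharacter_one⟩) : False := by
  classical
  let : Fintype (P : Subgroup G) := Fintype.ofFinite _
  have hfinP : Finite (IrrCharacter (P : Subgroup G)) := finite_irr
  let : Fintype (IrrCharacter (P : Subgroup G)) := Fintype.ofFinite _
  have hG : p ∣ Nat.card G := dvd_card_of_not_cyclic P hP
  obtain ⟨F, hF⟩ := exists_F0 hM hG hc hcm
  have hF2 : ∀ g, F g * F g = F g := fun g => H703.Lat.lattice_eq hp.out.ne_zero (one_mem_X0 hM) hF heq g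
  obtain ⟨f, hfi, hfp⟩ := exists_family P.isPGroup' hP
  set Θ : ↥(P : Subgroup G) → ℂ := fun x => ∑ χ ∈ X0 p M G, (c χ : ℂ) * (χ : G → ℂ) x with hΘ
  let mm : (↥(P : Subgroup G) →* ℂˣ) → ℤ := fun l => ∑ χ ∈ X0 p M G, c χ * (aa (P : Subgroup G) l χ : ℤ)
  have hmm : ∀ l : ↥(P : Subgroup G) →* ℂˣ, classInner Θ (fun x => (l x : ℂ)) = mm l := by
    intro l
    have h1 : Θ = ∑ χ ∈ X0 p M G, (c χ : ℂ) • (fun x : (P : Subgroup G) => (χ : G → ℂ) x) := by
      funext x
      rw [Finset.sum_apply]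
      rfl
    rw [h1, classInner_sum_left]
    push_cast [mm]
    refine Finset.sum_congr rfl fun χ _ => ?_
    rw [classInner_smul_left, aa_eq]
  have hnd : ∀ l : ↥(P : Subgroup G) →* ℂˣ, (∀ x, l x ^ p = 1) → ¬ (p : ℤ) ∣ mm l := by
    intro l hl hd
    have h1 := not_dvd_sum_aa0 hM hG P hl
    have h2 : (p : ℤ) ∣ mm l - m * ∑ χ ∈ X0 p M G, (aa (P : Subgroup G) l χ : ℤ) * (charDegree (χ : G → ℂ) : ℤ) := by
      rw [Finset.mul_sum]
      simp only [mm]
      rw [← Finset.sum_sub_distrib]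
      refine Finset.dvd_sum fun χ hχ => ?_
      have h3 : c χ * (aa (P : Subgroup G) l χ : ℤ) - m * ((aa (P : Subgroup G) l χ : ℤ) * (charDegree (χ : G → ℂ) : ℤ)) =
          (c χ - m * charDegree (χ : G → ℂ)) * (aa (P : Subgroup G) l χ : ℤ) := by ring
      rw [h3]
      exact Dvd.dvd.mul_right (hcm χ hχ) _
    have h3 : (p : ℤ) ∣ m * ∑ χ ∈ X0 p M G, (aa (P : Subgroup G) l χ : ℤ) * (charDegree (χ : G → ℂ) : ℤ) := by
      have := dvd_sub hd h2
      rwa [sub_sub_cancel] at this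
    rcases (Nat.prime_iff_prime_int.1 hp.out).dvd_or_dvd h3 with h4 | h4
    · exact hm h4
    · exact h1 h4
  have hPpos : (0 : ℝ) < Nat.card (P : Subgroup G) := by exact_mod_cast Nat.card_pos
  have hPc : (Nat.card (P : Subgroup G) : ℂ) ≠ 0 := card_ne_zero_complex
  have hΘF : ∀ x, Θ x = (p : ℂ) * F x := fun x => hF x
  -- the two inner products
  have hone : classInner Θ (fun x => ((1 : ↥(P : Subgroup G) →* ℂˣ) x : ℂ)) = mm 1 := hmm 1
  have hself : classInner Θ Θ = (p : ℂ) * mm 1 := by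
    have key : ∑ x : (P : Subgroup G), Θ x * conj (Θ x) =
        (p : ℂ) * ∑ x : (P : Subgroup G), Θ x * conj ((1 : ↥(P : Subgroup G) →* ℂˣ) x : ℂ) := by
      rw [Finset.mul_sum]
      refine Finset.sum_congr rfl fun x _ => ?_
      rw [hΘF, map_mul, map_natCast, map_intCast, MonoidHom.one_apply, Units.val_one, map_one, mul_one]
      have h1 : ((F x : ℂ)) * F x = F x := by exact_mod_cast hF2 x
      calc (p : ℂ) * F x * (p * F x) = p * (p * (F x * F x)) := by ring
        _ = p * (p * F x) := by rw [h1]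
    rw [← hone, classInner_def, classInner_def, key]
    ring
  have hle : mm 1 ≤ p := by
    have h1 : (mm 1 : ℂ) = (Nat.card (P : Subgroup G) : ℂ)⁻¹ * ∑ x : (P : Subgroup G), (p : ℂ) * F x := by
      rw [← hone, classInner_def]
      congr 1
      refine Finset.sum_congr rfl fun x _ => ?_
      rw [hΘF, MonoidHom.one_apply, Units.val_one, map_one, mul_one]
    have h2 : (Nat.card (P : Subgroup G) : ℤ) * mm 1 = ∑ x : (P : Subgroup G), (p : ℤ) * F x := by
      have h3 : (Nat.card (P : Subgroup G) : ℂ) * mm 1 = ∑ x : (P : Subgroup G), (p : ℂ) * F x := by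
        rw [h1, ← mul_assoc, mul_inv_cancel₀ hPc, one_mul]
      exact_mod_cast h3
    have h4 : ∑ x : (P : Subgroup G), (p : ℤ) * F x ≤ ∑ _x : (P : Subgroup G), (p : ℤ) := by
      refine Finset.sum_le_sum fun x _ => ?_
      have h5 : F x ≤ 1 := by nlinarith [hF2 (x : G)]
      have h6 : (0 : ℤ) ≤ p := Int.natCast_nonneg _
      nlinarith
    rw [← h2, Finset.sum_const, Finset.card_univ, ← Nat.card_eq_fintype_card, nsmul_eq_mul] at h4
    have h7 : (0 : ℤ) < Nat.card (P : Subgroup G) := by exact_mod_cast Nat.card_pos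
    exact le_of_mul_le_mul_left h4 h7
  have hge : (p : ℤ) ≤ mm 1 := by
    have hcf : IsClassFunction (P : Subgroup G) Θ := by
      intro g x
      simp only [hΘ]
      refine Finset.sum_congr rfl fun χ _ => ?_
      congr 1
      exact isIrr_isClassFunction χ.2 (g : G) (x : G)
    have h1 := classInner_eq_sum hcf hcf
    rw [hself] at h1
    have h2 : ((p : ℝ) * mm 1) = ∑ ψ : IrrCharacter (P : Subgroup G), Complex.normSq (classInner Θ (ψ : ↥(P : Subgroup G) → ℂ)) := by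
      have h3 : (((p : ℝ) * mm 1 : ℝ) : ℂ) = ((∑ ψ : IrrCharacter (P : Subgroup G),
          Complex.normSq (classInner Θ (ψ : ↥(P : Subgroup G) → ℂ)) : ℝ) : ℂ) := by
        push_cast
        rw [h1]
        exact Finset.sum_congr rfl fun ψ _ => Complex.mul_conj _
      exact_mod_cast h3
    let F2 : Fin p × Fin p → IrrCharacter (P : Subgroup G) := fun i =>
      ⟨fun x => (f i x : ℂ), Cfsg.Agent.Characters.Linear.isIrrCharacter_hom (f i)⟩
    have hF2i : Function.Injective F2 := by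
      intro i j hij
      apply hfi
      ext x
      exact congrFun (congrArg Subtype.val hij) x
    have h3 : ∑ i : Fin p × Fin p, Complex.normSq (classInner Θ (F2 i : ↥(P : Subgroup G) → ℂ)) ≤
        ∑ ψ : IrrCharacter (P : Subgroup G), Complex.normSq (classInner Θ (ψ : ↥(P : Subgroup G) → ℂ)) := by
      rw [← Finset.sum_image (f := fun ψ : IrrCharacter (P : Subgroup G) =>
        Complex.normSq (classInner Θ (ψ : ↥(P : Subgroup G) → ℂ))) (fun i _ j _ h => hF2i h)]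
      exact Finset.sum_le_sum_of_subset_of_nonneg (Finset.subset_univ _) fun _ _ _ => Complex.normSq_nonneg _
    have h4 : ∑ _i : Fin p × Fin p, (1 : ℝ) ≤ ∑ i : Fin p × Fin p, Complex.normSq (classInner Θ (F2 i : ↥(P : Subgroup G) → ℂ)) := by
      refine Finset.sum_le_sum fun i _ => ?_
      have h5 : classInner Θ (F2 i : ↥(P : Subgroup G) → ℂ) = mm (f i) := hmm (f i)
      rw [h5]
      have h6 : mm (f i) ≠ 0 := fun h => hnd (f i) (hfp i) (h ▸ dvd_zero _)
      have h7 : (1 : ℤ) ≤ mm (f i) * mm (f i) := by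
        rcases lt_or_gt_of_ne h6 with h8 | h8 <;> nlinarith
      have h8 : Complex.normSq ((mm (f i) : ℤ) : ℂ) = (mm (f i) : ℝ) * mm (f i) := by
        rw [← Complex.ofReal_intCast, Complex.normSq_ofReal]
      rw [h8]
      exact_mod_cast h7
    rw [Finset.sum_const, Finset.card_univ, Fintype.card_prod, Fintype.card_fin, nsmul_eq_mul, mul_one] at h4
    have h9 : ((p * p : ℕ) : ℝ) ≤ (p : ℝ) * mm 1 := h2 ▸ (h4.trans h3)
    have h10 : (p : ℤ) * p ≤ p * mm 1 := by
      have h11 : (((p : ℤ) * p : ℤ) : ℝ) ≤ (((p : ℤ) * mm 1 : ℤ) : ℝ) := by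
        push_cast at h9 ⊢
        exact h9
      exact_mod_cast h11
    have h12 : (0 : ℤ) < p := by exact_mod_cast hp.out.pos
    exact le_of_mul_le_mul_left h10 h12
  have hfin : mm 1 = p := le_antisymm hle hge
  exact hnd 1 (fun x => by rw [MonoidHom.one_apply, one_pow]) (hfin ▸ dvd_refl _)

end mult

end Cfsg.Agent.H605.XZ
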